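import Cfsg.Agent.H792.CY.Inner
import Cfsg.Agent.H893.Sd.MemIff
import Cfsg.Agent.H893.Sd.Lift
import Cfsg.Agent.H685.SigmaOne
import Cfsg.Agent.S0867
import Cfsg.Agent.CharactersDeep.MaxInduced
import Cfsg.Agent.Characters.Linear

/-!
# S4829, L3: extensions to groups of outer automorphisms of exponent `2 p ^ k` (helper902)

* `exists_sign` : among the twists of an extension by linear characters of order two one lies in the principal block;
* `witA_of_ext` : the witness from a `Cyc` extension;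
* `rowA_of_odd` : characters of odd degree.
-/

set_option autoImplicit false
set_option linter.unusedSectionVars false

namespace Cfsg.Agent.H902.CY

open Cfsg Subgroup Cfsg.Agent.Blocks Cfsg.Agent.H770.CY Cfsg.Agent.Characters Cfsg.Agent.Characters.Core
open Cfsg.Agent.Blocks.Blau (regPart regPart_of_dvd regPart_of_not_dvd)

universe u v

/-- **One of the twists lies in the principal block.** -/
theorem exists_sign {S : Type u} {X : Type v} [Group S] [Finite S] [Group X] [Finite X] {p : ℕ} [hp : Fact p.Prime]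
    {M : Ideal AlgInt} (hM : IsPModular p M) (f : S →* X) (hf : Function.Injective f) {L : Type*} [Group L] [Finite L]
    (ev : L →* (X →* ℂˣ)) (htriv : ∀ l s, ev l (f s) = 1)
    (hsep : ∀ x : X, x ∉ f.range → ¬ p ∣ orderOf x → ∃ l, ev l x ≠ 1)
    {Θ : X → ℂ} (hΘ : IsCharacter X Θ) {θ : IrrCharacter S} (hθ : θ ∈ principalBlock M S)
    (hres : ∀ s, Θ (f s) = (θ : S → ℂ) s) :
    ∃ (l : L) (χ : IrrCharacter X), χ ∈ principalBlock M X ∧ ∀ x, (χ : X → ℂ) x = Θ x * (ev l x : ℂ) := by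
  classical
  have := Fintype.ofFinite S
  have := Fintype.ofFinite X
  have := Fintype.ofFinite L
  have hirr : ∀ l : L, IsIrrCharacter X (fun x => Θ x * (ev l x : ℂ)) := by
    intro l
    refine CharactersDeep.MaxInduced.isIrr_of_comp f (isCharacter_mul hΘ (Linear.isCharacter_hom (ev l))) ?_
    have h1 : ((fun x => Θ x * (ev l x : ℂ)) ∘ f) = (θ : S → ℂ) := by
      funext s
      show Θ (f s) * (ev l (f s) : ℂ) = _
      rw [htriv, hres, Units.val_one, mul_one]
    rw [h1]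
    exact θ.2
  by_contra hcon
  push Not at hcon
  have h0 : ∀ l : L, ∑ x : X, regPart p (fun x => Θ x * (ev l x : ℂ)) x = 0 := by
    intro l
    by_contra h
    obtain ⟨x, hx⟩ := hcon l ⟨_, hirr l⟩ ((H893.Sd.mem_iff hM ⟨_, hirr l⟩).2 h)
    exact hx rfl
  have h1 : ∑ x : X, ∑ l : L, regPart p (fun x => Θ x * (ev l x : ℂ)) x = 0 := by
    rw [Finset.sum_comm]
    exact Finset.sum_eq_zero fun l _ => h0 l
  have h2 : ∑ s : S, (Nat.card L : ℂ) * regPart p (θ : S → ℂ) s =
      ∑ x : X, ∑ l : L, regPart p (fun x => Θ x * (ev l x : ℂ)) x := by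
    refine Finset.sum_of_injOn f (fun a _ b _ h => hf h) (fun a _ => Finset.mem_coe.2 (Finset.mem_univ _)) ?_ ?_
    · intro x _ hx
      by_cases hd : p ∣ orderOf x
      · exact Finset.sum_eq_zero fun l _ => regPart_of_dvd hd
      · have hx' : x ∉ f.range := by
          rintro ⟨s, rfl⟩
          exact hx ⟨s, Finset.mem_coe.2 (Finset.mem_univ _), rfl⟩
        obtain ⟨l₀, hl₀⟩ := hsep x hx' hd
        have h3 : ∑ l : L, regPart p (fun x => Θ x * (ev l x : ℂ)) x = Θ x * ∑ l : L, (ev l x : ℂ) := by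
          rw [Finset.mul_sum]
          exact Finset.sum_congr rfl fun l _ => regPart_of_not_dvd hd
        rw [h3]
        have h4 : (ev l₀ x : ℂ) * ∑ l : L, (ev l x : ℂ) = ∑ l : L, (ev l x : ℂ) := by
          rw [Finset.mul_sum]
          refine Fintype.sum_equiv (Equiv.mulLeft l₀) _ _ fun l => ?_
          rw [Equiv.coe_mulLeft, map_mul, MonoidHom.mul_apply, Units.val_mul]
        have h5 : (ev l₀ x : ℂ) ≠ 1 := fun h => hl₀ (Units.ext h)
        have h6 : ((ev l₀ x : ℂ) - 1) * ∑ l : L, (ev l x : ℂ) = 0 := by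
          rw [sub_mul, h4, one_mul, sub_self]
        rcases mul_eq_zero.1 h6 with h7 | h7
        · exact absurd (sub_eq_zero.1 h7) h5
        · rw [h7, mul_zero]
    · intro s _
      by_cases hd : p ∣ orderOf s
      · rw [regPart_of_dvd hd, mul_zero]
        refine (Finset.sum_eq_zero fun l _ => regPart_of_dvd ?_).symm
        rwa [orderOf_injective f hf]
      · have hd' : ¬ p ∣ orderOf (f s) := by rwa [orderOf_injective f hf]
        rw [regPart_of_not_dvd hd]
        have h3 : ∀ l : L, regPart p (fun x => Θ x * (ev l x : ℂ)) (f s) = (θ : S → ℂ) s := by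
          intro l
          rw [regPart_of_not_dvd hd', htriv, hres, Units.val_one, mul_one]
        rw [Finset.sum_congr rfl fun l _ => h3 l, Finset.sum_const, Finset.card_univ, nsmul_eq_mul,
          Nat.card_eq_fintype_card]
  rw [← h2, ← Finset.mul_sum] at h1
  rcases mul_eq_zero.1 h1 with h3 | h3
  · exact Nat.card_pos.ne' (by exact_mod_cast h3 : Nat.card L = 0)
  · exact (H893.Sd.mem_iff hM θ).1 hθ h3

/-- twisting preserves `Cyc` -/
theorem cyc_mul {p : ℕ} {A : Type u} [Group A] {f g : A → ℂ} (hf : Cyc p f) (hg : Cyc p g) :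
    Cyc p (fun a => f a * g a) := by
  intro k hk hk' a
  show f (a ^ k) * g (a ^ k) = _
  rw [hf k hk hk', hg k hk hk']

/-- linear characters of order at most two -/
theorem cyc_sign {p : ℕ} {A : Type u} [Group A] [Finite A] (l : A →* ℂˣ) (h : ∀ a, l a ^ 2 = 1) :
    Cyc p (fun a => (l a : ℂ)) := by
  intro k hk _ a
  show (l (a ^ k) : ℂ) = l a
  rw [map_pow]
  rcases Nat.even_or_odd k with hk2 | hk2
  · have h1 : Odd (Nat.card A) := by
      by_contra h2
      rw [Nat.not_odd_iff_even] at h2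
      have h3 : 2 ∣ Nat.gcd k (Nat.card A) := Nat.dvd_gcd hk2.two_dvd h2.two_dvd
      rw [hk] at h3
      exact absurd h3 (by decide)
    have h4 : l a ^ Nat.card A = 1 := by rw [← map_pow, pow_card_eq_one', map_one]
    obtain ⟨m, hm⟩ := h1
    rw [hm, pow_succ, pow_mul, h, one_pow, one_mul] at h4
    rw [h4, one_pow]
  · obtain ⟨m, hm⟩ := hk2
    rw [hm, pow_succ, pow_mul, h, one_pow, one_mul]

section ext

variable {S : Type u} [Group S] [Fintype S] {A : Subgroup (MulAut S)} (hA : ∀ s : S, MulAut.conj s ∈ A)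

/-- the embedding of `S` in `A` -/
def emb {S : Type u} [Group S] {A : Subgroup (MulAut S)} (hA : ∀ s : S, MulAut.conj s ∈ A) : S →* A :=
  (MulAut.conj : S →* MulAut S).codRestrict A (fun s => hA s)

theorem emb_inj (hz : center S = ⊥) : Function.Injective (emb hA) := by
  rw [injective_iff_map_eq_one]
  intro s hs
  have h5 : MulAut.conj s = 1 := congrArg Subtype.val hs
  have h6 : s ∈ center S := by
    rw [mem_center_iff]
    intro x
    have h7 := congrArg (fun a : MulAut S => a x) h5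
    simp only [MulAut.conj_apply, MulAut.one_apply] at h7
    exact (mul_inv_eq_iff_eq_mul.1 h7).symm
  rw [hz] at h6
  exact h6

theorem mem_range_emb (a : A) : a ∈ (emb hA).range ↔ (a : MulAut S) ∈ (MulAut.conj : S →* MulAut S).range := by
  constructor
  · rintro ⟨s, rfl⟩
    exact ⟨s, rfl⟩
  · rintro ⟨s, hs⟩
    exact ⟨s, Subtype.ext hs⟩

theorem range_emb_normal : ((emb hA).range).Normal := by
  refine ⟨fun n hn g => ?_⟩
  rw [mem_range_emb] at hn ⊢
  obtain ⟨s, hs⟩ := hn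
  refine ⟨(g : MulAut S) s, ?_⟩
  rw [Subgroup.coe_mul, Subgroup.coe_mul, ← hs]
  ext x
  simp [MulAut.conj_apply]

/-- elements of order prime to `p` of a normal subgroup of index a power of `p` -/
theorem mem_of_reg {p : ℕ} (hp : p.Prime) {A X : Subgroup (MulAut S)} (hn : ∀ a ∈ A, ∀ x ∈ X, a * x * a⁻¹ ∈ X)
    {k : ℕ} (hk : X.relIndex A = p ^ k) {a : MulAut S} (ha : a ∈ A) (hr : ¬ p ∣ orderOf a) : a ∈ X := by
  have hnor : (X.subgroupOf A).Normal := ⟨fun n hn' g => hn g g.2 n hn'⟩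
  have h1 : (⟨a, ha⟩ : A) ^ (p ^ k) ∈ X.subgroupOf A := by
    have h2 : (X.subgroupOf A).index = p ^ k := hk
    rw [← h2]
    exact Subgroup.pow_index_mem _ _
  have h3 : a ^ (p ^ k) ∈ X := h1
  have hcop : Nat.Coprime (p ^ k) (orderOf a) := Nat.Coprime.pow_left k ((hp.coprime_iff_not_dvd).2 hr)
  obtain ⟨m, hm⟩ := exists_pow_eq_self_of_coprime hcop
  rw [← hm]
  exact pow_mem h3 m

/-- **The witness from a `Cyc` extension**, `A / S` abelian of exponent dividing `2 p ^ k`. -/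
theorem witA_of_ext {p : ℕ} [hp : Fact p.Prime] (hz : center S = ⊥) (hA : Amb p S A)
    (hab : ∀ a ∈ A, ∀ b ∈ A, a * b * a⁻¹ * b⁻¹ ∈ (MulAut.conj : S →* MulAut S).range)
    (hexp : ∃ k : ℕ, ∀ a ∈ A, a ^ (2 * p ^ k) ∈ (MulAut.conj : S →* MulAut S).range)
    {M : Ideal AlgInt} (hM : IsPModular p M) {θ : IrrCharacter S} (hθ : θ ∈ principalBlock M S)
    (hne : (θ : S → ℂ) ≠ fun _ => 1) (hdeg : ¬ p ∣ charDegree (θ : S → ℂ)) (hcyc : Cyc p (θ : S → ℂ))
    {Θ : A → ℂ} (hΘ : IsCharacter A Θ) (hΘc : Cyc p Θ) (hres : res hA.1 Θ = (θ : S → ℂ)) :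
    ∃ Ψ : A → ℂ, WitA p M S A hA.1 Ψ := by
  classical
  obtain ⟨hAS, X, hXA, hSX, hXn, hXS, k₀, hk₀⟩ := hA
  obtain ⟨k, hk⟩ := hexp
  have hfinM : Finite (MulAut S) := Finite.of_injective (fun a : MulAut S => (a : S → S)) DFunLike.coe_injective
  have hfA : Finite A := inferInstance
  have hfX : Finite X := inferInstance
  set N : Subgroup A := (emb hAS).range with hNdef
  have hN : N.Normal := range_emb_normal hAS
  have hcomm : ∀ a b : A ⧸ N, a * b = b * a := by
    intro a b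
    induction a using QuotientGroup.induction_on with
    | H a =>
    induction b using QuotientGroup.induction_on with
    | H b =>
    rw [← QuotientGroup.mk_mul, ← QuotientGroup.mk_mul, QuotientGroup.eq]
    have h1 := hab (b⁻¹ : A) (b⁻¹ : A).2 (a⁻¹ : A) (a⁻¹ : A).2
    rw [mem_range_emb]
    have h2 : (((a * b)⁻¹ * (b * a) : A) : MulAut S) =
        ((b⁻¹ : A) : MulAut S) * ((a⁻¹ : A) : MulAut S) * ((b⁻¹ : A) : MulAut S)⁻¹ * ((a⁻¹ : A) : MulAut S)⁻¹ := by
      push_cast
      group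
    rw [h2]
    exact h1
  let _ : CommGroup (A ⧸ N) := { (inferInstance : Group (A ⧸ N)) with mul_comm := hcomm }
  have hfin : Finite ((A ⧸ N) →* ℂˣ) := by
    obtain ⟨e⟩ := CommGroup.monoidHom_mulEquiv_of_hasEnoughRootsOfUnity (A ⧸ N) ℂ
    exact Finite.of_equiv _ e.symm.toEquiv
  let L : Subgroup ((A ⧸ N) →* ℂˣ) := (powMonoidHom 2 : ((A ⧸ N) →* ℂˣ) →* ((A ⧸ N) →* ℂˣ)).ker
  have hL : ∀ (l : L) (y : A ⧸ N), (l : (A ⧸ N) →* ℂˣ) y ^ 2 = 1 := by
    intro l y
    have h1 : (l : (A ⧸ N) →* ℂˣ) ^ 2 = 1 := l.2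
    have h2 := congrArg (fun φ : (A ⧸ N) →* ℂˣ => φ y) h1
    exact h2
  let ι : X →* A := Subgroup.inclusion hXA
  let evA : L →* (A →* ℂˣ) :=
    { toFun := fun l => (l : (A ⧸ N) →* ℂˣ).comp (QuotientGroup.mk' N)
      map_one' := rfl
      map_mul' := fun _ _ => rfl }
  let ev : L →* (X →* ℂˣ) :=
    { toFun := fun l => (evA l).comp ι
      map_one' := rfl
      map_mul' := fun _ _ => rfl }
  have hevA : ∀ (l : L) (s : S), evA l (emb hAS s) = 1 := by
    intro l s
    show (l : (A ⧸ N) →* ℂˣ) ((emb hAS s : A) : A ⧸ N) = 1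
    have hm : emb hAS s ∈ N := MonoidHom.mem_range.2 ⟨s, rfl⟩
    rw [(QuotientGroup.eq_one_iff (emb hAS s)).2 hm, map_one]
  have hιe : ∀ s : S, ι (emb hSX s) = emb hAS s := fun s => rfl
  have hsep : ∀ x : X, x ∉ (emb hSX).range → ¬ p ∣ orderOf x → ∃ l, ev l x ≠ 1 := by
    intro x hx hr
    have hx' : (ι x : A) ∉ N := by
      intro h
      apply hx
      rw [mem_range_emb] at h ⊢
      exact h
    have hy : ((ι x : A) : A ⧸ N) ≠ 1 := fun h => hx' ((QuotientGroup.eq_one_iff _).1 h)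
    obtain ⟨φ, hφ⟩ := CommGroup.exists_apply_ne_one_of_hasEnoughRootsOfUnity (A ⧸ N) ℂ hy
    have hall : ∀ y : A ⧸ N, φ y ^ (2 * p ^ k) = 1 := by
      intro y
      induction y using QuotientGroup.induction_on with
      | H a =>
      rw [← map_pow, ← QuotientGroup.mk_pow, (QuotientGroup.eq_one_iff _).2, map_one]
      rw [mem_range_emb]
      exact hk a a.2
    have hl : φ ^ (p ^ k) ∈ L := by
      rw [MonoidHom.mem_ker]
      ext y
      show (((φ ^ (p ^ k)) ^ 2) y : ℂ) = ((1 : (A ⧸ N) →* ℂˣ) y : ℂ)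
      rw [← pow_mul, mul_comm (p ^ k) 2, MonoidHom.pow_apply, hall]
      rfl
    refine ⟨⟨φ ^ (p ^ k), hl⟩, ?_⟩
    show (φ ^ (p ^ k)) ((ι x : A) : A ⧸ N) ≠ 1
    rw [MonoidHom.pow_apply]
    intro h
    apply hφ
    have hn : φ ((ι x : A) : A ⧸ N) ^ orderOf x = 1 := by
      rw [← map_pow, ← QuotientGroup.mk_pow, ← map_pow, pow_orderOf_eq_one, map_one, QuotientGroup.mk_one, map_one]
    have hcop : Nat.Coprime (p ^ k) (orderOf x) := Nat.Coprime.pow_left k ((hp.out.coprime_iff_not_dvd).2 hr)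
    have h1 := pow_gcd_eq_one.2 ⟨h, hn⟩
    rw [hcop, pow_one] at h1
    exact h1
  obtain ⟨l, χ, hχ, hχv⟩ := exists_sign hM (emb hSX) (emb_inj hSX hz) ev
    (fun l s => hevA l s) hsep (Θ := Θ ∘ ι) (isCharacter_comp ι hΘ) hθ
    (fun s => congrFun hres s)
  · refine ⟨fun a => Θ a * (evA l a : ℂ), ?_, ?_, ?_, ?_, ?_⟩
    · exact isCharacter_mul hΘ (Linear.isCharacter_hom (evA l))
    · exact cyc_mul hΘc (cyc_sign (evA l) fun a => hL l _)
    · refine ⟨charDegree (θ : S → ℂ), ?_, hdeg⟩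
      show Θ 1 * (evA l 1 : ℂ) = _
      have h1 : Θ 1 = (θ : S → ℂ) 1 := by
        have := congrFun hres 1
        rw [← this]
        unfold res
        congr 1
        exact Subtype.ext (map_one _).symm
      rw [map_one, Units.val_one, mul_one, h1]
      exact Blocks.Basic.irr_one_eq_charDegree θ.2
    · have hr2 : res hAS (fun a => Θ a * (evA l a : ℂ)) = (θ : S → ℂ) := by
        funext s
        have h1 := congrFun hres s
        have h2 := hevA l s
        show Θ (emb hAS s) * (evA l (emb hAS s) : ℂ) = _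
        rw [h2, Units.val_one, mul_one]
        exact h1
      intro θ'
      rw [hr2]
      by_cases hθ' : (θ : S → ℂ) = θ'
      · right
        refine ⟨?_, ?_, ?_⟩
        · rw [← hθ']
          exact classInner_irr_self θ.2
        · rw [← hθ']
          exact hne
        · rw [← hθ']
          exact hcyc
      · left
        exact classInner_irr_ne θ.2 θ'.2 hθ'
    · rintro a har ⟨Q, hQ⟩
      have har' : ¬ p ∣ orderOf (a : MulAut S) := by rwa [Subgroup.orderOf_coe]
      have haX : (a : MulAut S) ∈ X := mem_of_reg hp.out hXn hk₀ a.2 har'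
      have h1 : MemLocalIdeal M ((χ : X → ℂ) ⟨a, haX⟩ - (χ : X → ℂ) 1) := by
        refine H792.CY.value_of_mem hM hχ ?_
        have hle : (Q : Subgroup S).map (emb hSX) ≤ centralizer ({(⟨a, haX⟩ : X)} : Set X) := by
          rintro _ ⟨q, hq, rfl⟩
          rw [mem_centralizer_singleton_iff]
          apply Subtype.ext
          show MulAut.conj q * (a : MulAut S) = (a : MulAut S) * MulAut.conj q
          ext x
          have h2 := hQ q hq
          simp [MulAut.conj_apply, map_mul, h2]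
        intro hd
        have h3 := hd.trans (index_dvd_of_le hle)
        rw [index_map, (MonoidHom.ker_eq_bot_iff _).2 (emb_inj hSX hz), sup_bot_eq] at h3
        rcases (hp.out.dvd_mul).1 h3 with h4 | h4
        · exact Q.not_dvd_index h4
        · apply hXS
          have h5 : (emb hSX).range = (MulAut.conj : S →* MulAut S).range.subgroupOf X := by
            ext x
            rw [mem_range_emb, mem_subgroupOf]
          rw [h5] at h4
          exact h4
      rw [hχv, hχv] at h1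
      exact h1

end ext

/-- a unit modulo `n` has a representative prime to `m` -/
theorem exists_coprime_modEq {k n m : ℕ} (hn : n ≠ 0) (hm : m ≠ 0) (hk : Nat.Coprime k n) :
    ∃ k' : ℕ, Nat.Coprime k' m ∧ k' ≡ k [MOD n] := by
  have : NeZero (n * m) := ⟨Nat.mul_ne_zero hn hm⟩
  obtain ⟨u, hu⟩ := ZMod.unitsMap_surjective (Dvd.intro m rfl : n ∣ n * m) (ZMod.unitOfCoprime k hk)
  refine ⟨(u : ZMod (n * m)).val, ?_, ?_⟩
  · exact Nat.Coprime.coprime_dvd_right (Dvd.intro_left n rfl) (ZMod.val_coe_unit_coprime u)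
  · have h1 := congrArg Units.val hu
    rw [ZMod.unitsMap_val, ZMod.coe_unitOfCoprime] at h1
    rw [← ZMod.natCast_eq_natCast_iff]
    rw [← h1, ZMod.natCast_val]

/-- restriction -/
theorem cyc_comp {p : ℕ} (hp : p.Prime) {H : Type u} {G : Type v} [Group H] [Group G] [Finite H] [Finite G]
    (f : H →* G) {χ : G → ℂ} (h : Cyc p χ) : Cyc p (χ ∘ f) := by
  intro k hk hk1 x
  have h1 : Nat.Coprime k (p * Nat.card H) := by
    refine Nat.Coprime.mul_right ?_ hk
    rw [Nat.coprime_comm, hp.coprime_iff_not_dvd]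
    intro hd
    have h2 := (Nat.modEq_zero_iff_dvd.2 hd).symm.trans hk1
    have h3 := (Nat.modEq_zero_iff_dvd.1 h2.symm)
    exact hp.one_lt.ne' (Nat.dvd_one.1 h3)
  obtain ⟨k', hk', hm⟩ := exists_coprime_modEq (m := Nat.card G)
    (Nat.mul_ne_zero hp.ne_zero Nat.card_pos.ne') Nat.card_pos.ne' h1
  have h2 : x ^ k' = x ^ k := by
    rw [pow_eq_pow_iff_modEq]
    exact (hm.of_dvd (Dvd.intro_left p rfl)).of_dvd (orderOf_dvd_natCard x)
  have h3 := h k' hk' ((hm.of_dvd (Dvd.intro _ rfl)).trans hk1) (f x)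
  show χ (f (x ^ k)) = χ (f x)
  rw [← h2, map_pow, h3]

/-- **The canonical extension is `Cyc`.** -/
theorem exists_cyc_ext {G : Type u} [Group G] [Finite G] (N : Subgroup G) [hN : N.Normal] (hperf : commutator N = ⊤)
    {p : ℕ} {θ : N → ℂ} (hθ : IsIrrCharacter N θ)
    (hinv : ∀ (g : G) (n : N), θ ⟨g * n * g⁻¹, hN.conj_mem (n : G) n.2 g⟩ = θ n)
    {d : ℕ} (hd : θ 1 = d) (hcop : Nat.Coprime N.index d) (hc : Cyc p θ) :
    ∃ χ : G → ℂ, IsIrrCharacter G χ ∧ (∀ n : N, χ n = θ n) ∧ Cyc p χ := by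
  have h1 := H893.Sd.detOrder_eq_one hperf hθ
  obtain ⟨χ, ⟨hχ, hres, hdet⟩, huniq⟩ := S0867.result N θ hθ hinv d hd (by rw [h1, one_mul]; exact hcop)
  refine ⟨χ, hχ, hres, fun k hk hk' g => ?_⟩
  have h2 : detChar χ = 1 := by
    rw [h1] at hdet
    exact orderOf_eq_one_iff.1 hdet
  have h3 := huniq (fun x => χ (x ^ k)) (GaloisIrr.isIrr_pow hk hχ) (fun n => ?_) ?_
  · exact congrFun h3 g
  · show χ ((n : G) ^ k) = θ n
    have h4 := hres (n ^ k)
    rw [Subgroup.coe_pow] at h4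
    rw [h4]
    exact hc k (Nat.Coprime.coprime_dvd_right (Subgroup.card_subgroup_dvd_card N) hk) hk' n
  · have h4 : detOrder (fun x => χ (x ^ k)) = 1 := by
      unfold detOrder
      rw [orderOf_eq_one_iff]
      funext x
      rw [H685.SigmaOne.detChar_pow hχ hk, h2, Pi.one_apply, one_pow]
    rw [h4]
    exact Nat.coprime_one_right _

section simple

theorem center_bot {S : Type u} [Group S] [IsSimpleGroup S] (hna : ¬ IsMulCommutative S) : center S = ⊥ := by
  rcases (inferInstance : (center S).Normal).eq_bot_or_eq_top with h | h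
  · exact h
  · exact absurd ⟨⟨fun a b => ((mem_center_iff.1 (by rw [h]; trivial : a ∈ center S)) b).symm⟩⟩ hna

theorem commutator_top {S : Type u} [Group S] [IsSimpleGroup S] (hna : ¬ IsMulCommutative S) : commutator S = ⊤ := by
  rcases (inferInstance : (commutator S).Normal).eq_bot_or_eq_top with h | h
  · rw [commutator_eq_bot_iff_center_eq_top, center_bot hna] at h
    exact absurd h bot_ne_top
  · exact h

/-- **The extension to a group of automorphisms**, degree prime to the index. -/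
theorem exists_ext_amb {p : ℕ} (hp : p.Prime) {S : Type u} [Group S] [Fintype S] [IsSimpleGroup S]
    (hna : ¬ IsMulCommutative S) {A : Subgroup (MulAut S)} (hA : ∀ s : S, MulAut.conj s ∈ A) {θ : S → ℂ}
    (hθ : IsIrrCharacter S θ) (hinv : ∀ a ∈ A, ∀ x, θ (a x) = θ x)
    (hcop : Nat.Coprime ((MulAut.conj : S →* MulAut S).range.relIndex A) (charDegree θ)) (hc : Cyc p θ) :
    ∃ Θ : A → ℂ, IsIrrCharacter A Θ ∧ res hA Θ = θ ∧ Cyc p Θ := by
  have hz := center_bot hna
  have hfinM : Finite (MulAut S) := Finite.of_injective (fun a : MulAut S => (a : S → S)) DFunLike.coe_injective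
  let e : S ≃* (emb hA).range := MonoidHom.ofInjective (emb_inj hA hz)
  have hN : ((emb hA).range).Normal := range_emb_normal hA
  have hsN : IsSimpleGroup (emb hA).range := e.symm.isSimpleGroup
  have hnaN : ¬ IsMulCommutative (emb hA).range := by
    intro h
    apply hna
    refine ⟨⟨fun a b => e.injective ?_⟩⟩
    rw [map_mul, map_mul]
    exact h.1.1 _ _
  have hidx : ((emb hA).range).index = (MulAut.conj : S →* MulAut S).range.relIndex A := by
    have h5 : (emb hA).range = (MulAut.conj : S →* MulAut S).range.subgroupOf A := by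
      ext x
      rw [mem_range_emb, mem_subgroupOf]
    rw [h5]
    rfl
  have hsym : ∀ s : S, e.symm ⟨emb hA s, ⟨s, rfl⟩⟩ = s := fun s => e.symm_apply_apply s
  have hinv' : ∀ (g : A) (n : (emb hA).range), θ (e.symm ⟨g * n * g⁻¹, hN.conj_mem (n : A) n.2 g⟩) = θ (e.symm n) := by
    rintro g ⟨_, s, rfl⟩
    have h1 : (⟨g * (emb hA s) * g⁻¹, hN.conj_mem _ ⟨s, rfl⟩ g⟩ : (emb hA).range) =
        ⟨emb hA ((g : MulAut S) s), ⟨_, rfl⟩⟩ := by
      apply Subtype.ext
      apply Subtype.ext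
      show (g : MulAut S) * MulAut.conj s * (g : MulAut S)⁻¹ = MulAut.conj ((g : MulAut S) s)
      ext x
      simp [MulAut.conj_apply]
    show θ (e.symm ⟨g * (emb hA s) * g⁻¹, hN.conj_mem _ ⟨s, rfl⟩ g⟩) = θ (e.symm ⟨emb hA s, ⟨s, rfl⟩⟩)
    rw [h1, hsym, hsym]
    exact hinv _ g.2 s
  have hdeg : θ (e.symm 1) = (charDegree θ : ℂ) := by
    rw [map_one]
    exact Blocks.Basic.irr_one_eq_charDegree hθ
  obtain ⟨χ, hχ, hres, hcyc⟩ := exists_cyc_ext (emb hA).range (commutator_top hnaN)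
    (θ := fun n => θ (e.symm n)) (isIrr_comp e.symm.toMonoidHom e.symm.surjective hθ)
    hinv' (d := charDegree θ) hdeg (by rw [hidx]; exact hcop) (cyc_comp hp e.symm.toMonoidHom hc)
  refine ⟨χ, hχ, ?_, hcyc⟩
  funext s
  have h1 := hres ⟨emb hA s, ⟨s, rfl⟩⟩
  rw [hsym] at h1
  exact h1

/-- **Odd degree**: `Out S` abelian of exponent dividing `2 p ^ k`. -/
theorem rowA_of_odd {p : ℕ} [hp : Fact p.Prime] {S : Type u} [Group S] [Fintype S] [IsSimpleGroup S]
    (hna : ¬ IsMulCommutative S)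
    (hab : ∀ a b : MulAut S, a * b * a⁻¹ * b⁻¹ ∈ (MulAut.conj : S →* MulAut S).range)
    (hexp : ∃ k : ℕ, ∀ a : MulAut S, a ^ (2 * p ^ k) ∈ (MulAut.conj : S →* MulAut S).range)
    (h : ∀ M : Ideal AlgInt, IsPModular p M → ∃ θ : IrrCharacter S, θ ∈ principalBlock M S ∧
      (θ : S → ℂ) ≠ (fun _ => 1) ∧ ¬ p ∣ charDegree (θ : S → ℂ) ∧ Odd (charDegree (θ : S → ℂ)) ∧ Cyc p (θ : S → ℂ) ∧
      ∀ (a : MulAut S) (x : S), (θ : S → ℂ) (a x) = (θ : S → ℂ) x) : RowA p S := by
  classical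
  have hfinM : Finite (MulAut S) := Finite.of_injective (fun a : MulAut S => (a : S → S)) DFunLike.coe_injective
  intro A hA M hM
  obtain ⟨θ, h1, h2, h3, h4, h5, h6⟩ := h M hM
  obtain ⟨k, hk⟩ := hexp
  have hcop : Nat.Coprime ((MulAut.conj : S →* MulAut S).range.relIndex A) (charDegree (θ : S → ℂ)) := by
    refine Nat.Coprime.symm (Nat.coprime_of_dvd fun r hr hrd hri => ?_)
    have hN : ((emb hA.1).range).Normal := range_emb_normal hA.1
    have hidx : ((emb hA.1).range).index = (MulAut.conj : S →* MulAut S).range.relIndex A := by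
      have h5 : (emb hA.1).range = (MulAut.conj : S →* MulAut S).range.subgroupOf A := by
        ext x
        rw [mem_range_emb, mem_subgroupOf]
      rw [h5]
      rfl
    rw [← hidx, Subgroup.index_eq_card] at hri
    have : Fact r.Prime := ⟨hr⟩
    obtain ⟨y, hy⟩ := exists_prime_orderOf_dvd_card' (G := A ⧸ (emb hA.1).range) r hri
    have h7 : r ∣ 2 * p ^ k := by
      rw [← hy]
      apply orderOf_dvd_of_pow_eq_one
      induction y using QuotientGroup.induction_on with
      | H a =>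
      rw [← QuotientGroup.mk_pow, QuotientGroup.eq_one_iff, mem_range_emb]
      exact hk a
    rcases (hr.dvd_mul).1 h7 with h8 | h8
    · have h9 := (Nat.prime_dvd_prime_iff_eq hr Nat.prime_two).1 h8
      rw [h9] at hrd
      exact (Nat.not_even_iff_odd.2 h4) (even_iff_two_dvd.2 hrd)
    · have h9 := (Nat.prime_dvd_prime_iff_eq hr hp.out).1 (hr.dvd_of_dvd_pow h8)
      rw [h9] at hrd
      exact h3 hrd
  obtain ⟨Θ, hΘ, hres, hΘc⟩ := exists_ext_amb hp.out hna hA.1 θ.2 (fun a _ x => h6 a x) hcop h5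
  exact witA_of_ext (center_bot hna) hA (fun a _ b _ => hab a b) ⟨k, fun a _ => hk a⟩ hM h1 h2 h3 h5
    (isIrr_isCharacter hΘ) hΘc hres

/-- `|Out S| ≤ 2` -/
theorem out_of_index {S : Type u} [Group S] (h : (MulAut.conj : S →* MulAut S).range.index ≤ 2)
    (h0 : (MulAut.conj : S →* MulAut S).range.index ≠ 0) :
    (∀ a b : MulAut S, a * b * a⁻¹ * b⁻¹ ∈ (MulAut.conj : S →* MulAut S).range) ∧
      ∀ a : MulAut S, a ^ 2 ∈ (MulAut.conj : S →* MulAut S).range := by
  have h1 : (MulAut.conj : S →* MulAut S).range.index = 1 ∨ (MulAut.conj : S →* MulAut S).range.index = 2 := by omega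
  rcases h1 with h1 | h1
  · rw [Subgroup.index_eq_one] at h1
    rw [h1]
    exact ⟨fun _ _ => mem_top _, fun _ => mem_top _⟩
  · refine ⟨fun a b => ?_, fun a => ?_⟩
    · rw [Subgroup.mul_mem_iff_of_index_two h1, Subgroup.mul_mem_iff_of_index_two h1,
        Subgroup.mul_mem_iff_of_index_two h1, inv_mem_iff, inv_mem_iff]
      tauto
    · rw [sq, Subgroup.mul_mem_iff_of_index_two h1]

/-- **Odd degree**, `|Out S| ≤ 2`. -/
theorem rowA_of_odd_two {p : ℕ} [hp : Fact p.Prime] {S : Type u} [Group S] [Fintype S] [IsSimpleGroup S]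
    (hna : ¬ IsMulCommutative S) (hout : (MulAut.conj : S →* MulAut S).range.index ≤ 2)
    (h : ∀ M : Ideal AlgInt, IsPModular p M → ∃ θ : IrrCharacter S, θ ∈ principalBlock M S ∧
      (θ : S → ℂ) ≠ (fun _ => 1) ∧ ¬ p ∣ charDegree (θ : S → ℂ) ∧ Odd (charDegree (θ : S → ℂ)) ∧ Cyc p (θ : S → ℂ) ∧
      ∀ (a : MulAut S) (x : S), (θ : S → ℂ) (a x) = (θ : S → ℂ) x) : RowA p S := by
  have hfinM : Finite (MulAut S) := Finite.of_injective (fun a : MulAut S => (a : S → S)) DFunLike.coe_injective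
  obtain ⟨h1, h2⟩ := out_of_index hout Subgroup.index_ne_zero_of_finite
  exact rowA_of_odd hna h1 ⟨0, fun a => by rw [pow_zero, mul_one]; exact h2 a⟩ h

/-- **A `Cyc` extension to `Aut S`**, `|Out S| ≤ 2`. -/
theorem rowA_of_ext {p : ℕ} [hp : Fact p.Prime] {S : Type u} [Group S] [Fintype S]
    (hz : center S = ⊥) (hout : (MulAut.conj : S →* MulAut S).range.index ≤ 2)
    (h : ∀ M : Ideal AlgInt, IsPModular p M → ∃ θ : IrrCharacter S, θ ∈ principalBlock M S ∧
      (θ : S → ℂ) ≠ (fun _ => 1) ∧ ¬ p ∣ charDegree (θ : S → ℂ) ∧ Cyc p (θ : S → ℂ) ∧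
      ∃ Θ : MulAut S → ℂ, IsCharacter (MulAut S) Θ ∧ Cyc p Θ ∧ ∀ s : S, Θ (MulAut.conj s) = (θ : S → ℂ) s) :
    RowA p S := by
  have hfinM : Finite (MulAut S) := Finite.of_injective (fun a : MulAut S => (a : S → S)) DFunLike.coe_injective
  obtain ⟨h1, h2⟩ := out_of_index hout Subgroup.index_ne_zero_of_finite
  intro A hA M hM
  obtain ⟨θ, h3, h4, h5, h6, Θ, hΘ, hΘc, hres⟩ := h M hM
  exact witA_of_ext hz hA (fun a _ b _ => h1 a b) ⟨0, fun a _ => by rw [pow_zero, mul_one]; exact h2 a⟩ hM h3 h4 h5 h6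
    (Θ := Θ ∘ A.subtype) (isCharacter_comp A.subtype hΘ) (cyc_comp hp.out A.subtype hΘc) (funext fun s => hres s)

/-- **A rational valued extension to `Aut S`**, `|Out S| ≤ 2`. -/
theorem rowA_of_extR {p : ℕ} [hp : Fact p.Prime] {S : Type u} [Group S] [Fintype S]
    (hz : center S = ⊥) (hout : (MulAut.conj : S →* MulAut S).range.index ≤ 2)
    (h : ∀ M : Ideal AlgInt, IsPModular p M → ∃ θ : IrrCharacter S, θ ∈ principalBlock M S ∧
      (θ : S → ℂ) ≠ (fun _ => 1) ∧ ¬ p ∣ charDegree (θ : S → ℂ) ∧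
      ∃ Θ : MulAut S → ℂ, IsCharacter (MulAut S) Θ ∧ (∀ a, ∃ r : ℚ, Θ a = r) ∧
        ∀ s : S, Θ (MulAut.conj s) = (θ : S → ℂ) s) :
    RowA p S := by
  have hfinM : Finite (MulAut S) := Finite.of_injective (fun a : MulAut S => (a : S → S)) DFunLike.coe_injective
  refine rowA_of_ext hz hout fun M hM => ?_
  obtain ⟨θ, h3, h4, h5, Θ, hΘ, hΘr, hres⟩ := h M hM
  refine ⟨θ, h3, h4, h5, ?_, Θ, hΘ, H792.CY.cyc_of_rat hΘ hΘr, hres⟩
  exact H792.CY.cyc_of_rat (isIrr_isCharacter θ.2) fun g => by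
    obtain ⟨r, hr⟩ := hΘr (MulAut.conj g)
    exact ⟨r, by rw [← hres, hr]⟩

end simple

end Cfsg.Agent.H902.CY
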